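import Cfsg.Agent.Lib.ToddCox.A7C2.Data
set_option autoImplicit false
set_option maxRecDepth 100000
namespace Cfsg.Agent.Lib.ToddCox.A7C2
theorem wordsGood : allBelow (wordsOK W (relR Rb inv) inv sp) nW 3 = true := by decide +kernel
theorem d0 : allBits (fun k => bif Nat.blt k 4 then chkDef Eo inv k else true) 13 0 = true := by decide +kernel
theorem s0 : chkStream Eo inv W isH 7 4 0x600000700000140000080000060000010000034000006000005000001800001800000a000002000001000000000001600000100000180000040000000000080000008000003ffffffffffff = true := by decide +kernel
theorem c0 : Covered Eo inv W isH 4 11 := covered_of_stream 7 4 _ s0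
theorem l0 : chkPoints Eo cF (2 * nEv) N ys 5 0 0x8000000c000028000003000009000000c00000e000002000002800000800002a0000040000098000010000022000004000003000001000001e00000200000180000040000080000030000068000004000002000000000001000000800001800000100000480000000000000000010000050000000000010000000 = true := by decide +kernel
theorem k0 : LinksOK Eo cF (2 * nEv) N ys 0 5 := linksOK_of_points 5 0 _ l0
end Cfsg.Agent.Lib.ToddCox.A7C2
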